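import Mathlib
import Cfsg.Agent.H286.Obs
import Cfsg.Agent.Classification.DihedralCentral

/-!
# `Obs` is impossible in groups with dihedral Sylow 2-subgroups (helper500, task 789 of helper286)

* `not_obs_dihedral` : Sylow 2-subgroups of `N` dihedral of order `2 n`, `2 ≤ n` (Klein four groups included);
* `not_obs` : the case of order 8.
-/

set_option autoImplicit false

namespace Cfsg.Agent.H500.OddD8

open Cfsg.Agent.H286.Obs Cfsg.Agent.Classification.DihedralCentral Cfsg.Agent.Classification.TransferSign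

theorem PE.odd {K : Type*} [Group K] {p : ℕ} (hp : Odd p) {v : K} (hv : PE p v) : Odd (orderOf v) := by
  obtain ⟨m, hm⟩ := hv
  exact Odd.of_dvd_nat hp.pow (orderOf_dvd_of_pow_eq_one hm)

/-- the elements of odd order of an `OddClosed` group -/
theorem odd_closure {C : Type*} [Group C] (h : OddClosed C) {S : Set C} (hS : ∀ s ∈ S, Odd (orderOf s)) {w : C}
    (hw : w ∈ Subgroup.closure S) : Odd (orderOf w) := by
  induction hw using Subgroup.closure_induction with
  | mem s hs => exact hS s hs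
  | one => rw [orderOf_one]; exact odd_one
  | mul a b _ _ iha ihb => exact h a b iha ihb
  | inv a _ iha => rwa [orderOf_inv]

theorem not_obs_of_subDihedral {K : Type*} [Group K] [Finite K] {p : ℕ} (hp : Odd p) (x : MulAut K)
    (N : Subgroup K) (hN : ∀ g, x g = g → PE p g → g ∈ N) (hS : SubDihedral ↥N) : ¬ Obs p x := by
  rintro ⟨z, w, hz, hzz, hz1, hww, hw1, hw⟩
  have hzN : z ∈ N := by
    have h1 : Subgroup.closure (FP p x) ≤ N := by
      rw [Subgroup.closure_le]
      rintro g ⟨hg, hgp⟩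
      exact hN g hg hgp
    exact h1 hz
  let z' : ↥N := ⟨z, hzN⟩
  have hz1' : z' ≠ 1 := fun h => hz1 (congrArg Subtype.val h)
  have hzz' : z' * z' = 1 := Subtype.ext hzz
  let C : Subgroup ↥N := Subgroup.centralizer ({z'} : Set ↥N)
  have hC : OddClosed ↥C := by
    refine oddClosed_of_subDihedral _ le_rfl (subDihedral_of_injective C.subtype Subtype.val_injective hS)
      ⟨z', by rw [Subgroup.mem_centralizer_singleton_iff]⟩ ?_ ?_ ?_
    · intro h
      exact hz1' (congrArg Subtype.val h)
    · exact Subtype.ext hzz'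
    · intro g
      have := Subgroup.mem_centralizer_singleton_iff.1 g.2
      exact Subtype.ext this
  let f : ↥C →* K := N.subtype.comp C.subtype
  have hf : Function.Injective f := Subtype.val_injective.comp Subtype.val_injective
  have hsub : {g | g ∈ FP p x ∧ g * z = z * g} ⊆ f '' {c | PE p c} := by
    rintro g ⟨⟨hg, hgp⟩, hgz⟩
    have hgN := hN g hg hgp
    have hgC : (⟨g, hgN⟩ : ↥N) ∈ C := by
      rw [Subgroup.mem_centralizer_singleton_iff]
      exact Subtype.ext hgz
    refine ⟨⟨⟨g, hgN⟩, hgC⟩, ?_, rfl⟩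
    obtain ⟨m, hm⟩ := hgp
    exact ⟨m, hf (by rw [map_pow, map_one]; exact hm)⟩
  have h2 : w ∈ (Subgroup.closure {c : ↥C | PE p c}).map f := by
    rw [MonoidHom.map_closure]
    exact Subgroup.closure_mono hsub hw
  obtain ⟨c, hc, hcw⟩ := h2
  have h3 : Odd (orderOf c) := odd_closure hC (fun s hs => PE.odd hp hs) hc
  have h4 : orderOf w ∣ 2 := orderOf_dvd_of_pow_eq_one (by rw [pow_two, hww])
  rw [← orderOf_injective f hf c, hcw] at h3
  have h5 : orderOf w = 1 := Nat.eq_one_of_dvd_coprimes (Nat.coprime_two_left.2 h3) h4 dvd_rfl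
  exact hw1 (orderOf_eq_one_iff.1 h5)

/-- dihedral Sylow 2-subgroups of order `2 n`, `n ≥ 2` -/
theorem not_obs_dihedral {K : Type*} [Group K] [Finite K] {p : ℕ} (hp : Odd p) (x : MulAut K) (N : Subgroup K)
    (hN : ∀ g, x g = g → PE p g → g ∈ N) (n : ℕ) [NeZero n] (S : Sylow 2 ↥N)
    (hS : Nonempty (↥(S : Subgroup ↥N) ≃* DihedralGroup n)) : ¬ Obs p x := by
  obtain ⟨e⟩ := hS
  exact not_obs_of_subDihedral hp x N hN (subDihedral_of_sylow S n e)

/-- dihedral Sylow 2-subgroups of order 8 -/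
theorem not_obs {K : Type*} [Group K] [Finite K] {p : ℕ} (hp : Odd p) (x : MulAut K) (N : Subgroup K)
    (hN : ∀ g, x g = g → PE p g → g ∈ N)
    (hS : ∀ S : Sylow 2 ↥N, Nonempty (↥(S : Subgroup ↥N) ≃* DihedralGroup 4)) : ¬ Obs p x :=
  not_obs_dihedral hp x N hN 4 default (hS default)

end Cfsg.Agent.H500.OddD8
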