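import Cfsg.Agent.S4025
import Cfsg.Agent.S0205
import Cfsg.Agent.H500.EqQuot

/-!
# Elementary abelian Sylow 2-subgroups of order at least 8 when 2-subgroups of equal order are conjugate
-/

set_option autoImplicit false

namespace Cfsg.Agent.H500

open Subgroup Cfsg.Agent.H501

/-- A subgroup is solvable if its intersection with a normal subgroup of odd index is. -/
theorem solvable_of_inf {X : Type*} [Group X] [Finite X] (N : Subgroup X) [N.Normal] (hodd : Odd N.index)
    (H : Subgroup X) (h : Group.IsSolvable (H ⊓ N : Subgroup X)) : Group.IsSolvable H := by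
  have h1 : Group.IsSolvable (X ⧸ N) := Cfsg.Agent.S0205.result (by rwa [← Subgroup.index_eq_card])
  let f : (H ⊓ N : Subgroup X) →* H := Subgroup.inclusion inf_le_left
  let g : H →* X ⧸ N := (QuotientGroup.mk' N).comp H.subtype
  apply Group.isSolvable_of_ker_le_range f g
  intro x hx
  have hx1 : (x : X) ∈ N := (QuotientGroup.eq_one_iff (x : X)).mp hx
  exact ⟨⟨x, x.2, hx1⟩, Subtype.ext rfl⟩

/-- The normalizer of an abelian Sylow 2-subgroup is solvable. -/
theorem solvable_normalizer {X : Type*} [Group X] [Finite X] (T : Sylow 2 X)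
    (hc : ∀ a ∈ (T : Subgroup X), ∀ b ∈ (T : Subgroup X), a * b = b * a) :
    Group.IsSolvable (normalizer ((T : Subgroup X) : Set X)) := by
  set M := normalizer ((T : Subgroup X) : Set X) with hM
  have hTM : (T : Subgroup X) ≤ M := le_normalizer
  have hn : ((T : Subgroup X).subgroupOf M).Normal := Subgroup.normal_subgroupOf_of_le_normalizer le_rfl
  rw [Group.isSolvable_iff_subgroup_quotient ((T : Subgroup X).subgroupOf M)]
  constructor
  · apply Group.isSolvable_of_comm
    intro a b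
    exact Subtype.ext (Subtype.ext (hc a a.2 b b.2))
  · apply Cfsg.Agent.S0205.result
    rw [← Subgroup.index_eq_card]
    rw [← Nat.not_even_iff_odd, even_iff_two_dvd]
    exact (T.subtype hTM).not_dvd_index

/-- The order of the one-dimensional semi-affine group over the field with 32 elements. -/
theorem five_dvd_card : 5 ∣ Nat.card (Cfsg.semiaffineGroup (GaloisField 2 5)) := by
  have h2 : Fact (Nat.Prime 2) := ⟨Nat.prime_two⟩
  rw [LinTrans.card_semiaffine, LinTrans.card_ringAut 2 5 (by norm_num)]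
  exact Dvd.dvd.mul_left (dvd_mul_left 5 _) _

/-- The rank of an elementary abelian Sylow 2-subgroup. -/
theorem rank_cases {X : Type*} [Group X] [Finite X] (hC : EqConj 2 X) (T : Sylow 2 X) (n : ℕ) (hn : 3 ≤ n)
    (hel : Cfsg.IsElementaryAbelian 2 (T : Subgroup X)) (hcard : Nat.card T = 2 ^ n) :
    n = 3 ∨ (n = 5 ∧ 5 ∣ Nat.card X) := by
  have h2 : Fact (Nat.Prime 2) := ⟨Nat.prime_two⟩
  have hc : ∀ a ∈ (T : Subgroup X), ∀ b ∈ (T : Subgroup X), a * b = b * a := fun a ha b hb =>
    congrArg Subtype.val (hel.1.is_comm.comm (⟨a, ha⟩ : (T : Subgroup X)) ⟨b, hb⟩)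
  have hs := solvable_normalizer T hc
  have hKn : (Cfsg.pPrimeCore 2 (normalizer ((T : Subgroup X) : Set X))).Normal := Lib.Cores.pPrimeCore_normal 2
  rcases Cfsg.Agent.S4025.result hC T n hn hel hcard _ rfl
    (Group.isSolvable_of_surjective (QuotientGroup.mk'_surjective _)) with ⟨h, -⟩ | ⟨h, -, ⟨e⟩⟩
  · exact Or.inl h
  · refine Or.inr ⟨h, ?_⟩
    have h1 := five_dvd_card
    rw [← Nat.card_congr e.toEquiv] at h1
    exact (h1.trans (Subgroup.card_quotient_dvd_card _)).trans (Subgroup.card_subgroup_dvd_card _)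

/-- The case of a normal Sylow 2-subgroup of rank at least 3. -/
theorem affine_cases {X : Type*} [Group X] [Finite X] (hC : EqConj 2 X) (hO : Cfsg.oddCore X = ⊥) (T : Sylow 2 X)
    (hT : (T : Subgroup X).Normal) (n : ℕ) (hn : 3 ≤ n)
    (hel : Cfsg.IsElementaryAbelian 2 (T : Subgroup X)) (hcard : Nat.card T = 2 ^ n) :
    Nonempty (X ≃* Cfsg.affineGroup (GaloisField 2 3)) ∨
    Nonempty (X ≃* Cfsg.semiaffineGroup (GaloisField 2 3)) ∨
    Nonempty (X ≃* Cfsg.semiaffineGroup (GaloisField 2 5)) := by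
  have h2 : Fact (Nat.Prime 2) := ⟨Nat.prime_two⟩
  have hc : ∀ a ∈ (T : Subgroup X), ∀ b ∈ (T : Subgroup X), a * b = b * a := fun a ha b hb =>
    congrArg Subtype.val (hel.1.is_comm.comm (⟨a, ha⟩ : (T : Subgroup X)) ⟨b, hb⟩)
  have hs := solvable_normalizer T hc
  have htop : normalizer ((T : Subgroup X) : Set X) = ⊤ := normalizer_eq_top _
  have hKn : (Cfsg.pPrimeCore 2 (normalizer ((T : Subgroup X) : Set X))).Normal := Lib.Cores.pPrimeCore_normal 2
  have hbot : Cfsg.pPrimeCore 2 (normalizer ((T : Subgroup X) : Set X)) = ⊥ := by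
    rw [htop]
    have h1 := Lib.Cores.map_subtype_pPrimeCore (G := X) 2 (N := ⊤) inferInstance
    have h3 : (Cfsg.pPrimeCore 2 X) = ⊥ := hO
    rw [h3, inf_bot_eq] at h1
    exact (Subgroup.map_eq_bot_iff_of_injective _ (Subgroup.subtype_injective _)).mp h1
  have e0 : X ≃* (normalizer ((T : Subgroup X) : Set X)) ⧸ Cfsg.pPrimeCore 2 (normalizer ((T : Subgroup X) : Set X)) :=
    (Subgroup.topEquiv.symm.trans (MulEquiv.subgroupCongr htop.symm)).trans
      (QuotientGroup.quotientBot.symm.trans (QuotientGroup.quotientMulEquivOfEq hbot.symm))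
  rcases Cfsg.Agent.S4025.result hC T n hn hel hcard _ rfl
    (Group.isSolvable_of_surjective (QuotientGroup.mk'_surjective _)) with ⟨-, -, h⟩ | ⟨-, -, ⟨e⟩⟩
  · rcases h rfl with ⟨⟨e⟩⟩ | ⟨⟨e⟩⟩
    · exact Or.inr (Or.inl ⟨e0.trans e⟩)
    · exact Or.inl ⟨e0.trans e⟩
  · exact Or.inr (Or.inr ⟨e0.trans e⟩)

end Cfsg.Agent.H500
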