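import Mathlib
import Cfsg.Agent.TwoFusion.PSL3Inv
import Cfsg.Agent.TwoFusion.LocalIndex
import Cfsg.Agent.S0280

/-!
# Four-subgroups of `PSL(3, q)`, `q` odd (helper500, lemma T1 of S3574)

* `exists_basis2` : two commuting matrices with square 1 have a common eigenbasis;
* `exists_conj2` : a four-subgroup of `SL(3, F)` is conjugate to `sg` (diagonal matrices with entries `±1`, det 1);
* `psl3_four` : `|C(V)| (3, q - 1) = (q - 1) ^ 2`, `|N(V)| = 6 |C(V)|` for the four-subgroups `V` of `PSL(3, q)`.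
-/

set_option autoImplicit false

namespace Cfsg.Agent.H500.Psl3Four

open Matrix Subgroup

variable {F : Type*} [Field F]

/-- two commuting matrices with square one have a common eigenbasis -/
theorem exists_basis2 (h2 : (2 : F) ≠ 0) {A B : Matrix (Fin 3) (Fin 3) F} (hA : A * A = 1) (hB : B * B = 1)
    (hAB : A * B = B * A) :
    ∃ b : Module.Basis (Fin 3) F (Fin 3 → F), ∀ i, (A *ᵥ b i = b i ∨ A *ᵥ b i = - b i) ∧
      (B *ᵥ b i = b i ∨ B *ᵥ b i = - b i) := by
  set S : Set (Fin 3 → F) := {v | (A *ᵥ v = v ∨ A *ᵥ v = -v) ∧ (B *ᵥ v = v ∨ B *ᵥ v = -v)} with hS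
  have key : ∀ v : Fin 3 → F, (B *ᵥ v = v ∨ B *ᵥ v = -v) → v ∈ Submodule.span F S := by
    intro v hv
    have hBA : ∀ w : Fin 3 → F, B *ᵥ (A *ᵥ w) = A *ᵥ (B *ᵥ w) := by
      intro w
      rw [Matrix.mulVec_mulVec, Matrix.mulVec_mulVec, hAB]
    have h1 : v + A *ᵥ v ∈ S := by
      refine ⟨Or.inl ?_, ?_⟩
      · rw [Matrix.mulVec_add, Matrix.mulVec_mulVec, hA, Matrix.one_mulVec, add_comm]
      · rcases hv with hv | hv
        · left
          rw [Matrix.mulVec_add, hBA, hv]
        · right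
          rw [Matrix.mulVec_add, hBA, hv, Matrix.mulVec_neg, neg_add]
    have h3 : v - A *ᵥ v ∈ S := by
      refine ⟨Or.inr ?_, ?_⟩
      · rw [Matrix.mulVec_sub, Matrix.mulVec_mulVec, hA, Matrix.one_mulVec, neg_sub]
      · rcases hv with hv | hv
        · left
          rw [Matrix.mulVec_sub, hBA, hv]
        · right
          rw [Matrix.mulVec_sub, hBA, hv, Matrix.mulVec_neg, neg_sub, sub_neg_eq_add, add_comm, ← sub_eq_add_neg]
    have h4 : v = (2 : F)⁻¹ • ((v + A *ᵥ v) + (v - A *ᵥ v)) := by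
      have : (v + A *ᵥ v) + (v - A *ᵥ v) = (2 : F) • v := by
        rw [two_smul]; abel
      rw [this, smul_smul, inv_mul_cancel₀ h2, one_smul]
    rw [h4]
    exact Submodule.smul_mem _ _ (Submodule.add_mem _ (Submodule.subset_span h1)
      (Submodule.subset_span h3))
  have hspan : ⊤ ≤ Submodule.span F S := by
    intro v _
    have h1 := key (v + B *ᵥ v) (Or.inl (by
      rw [Matrix.mulVec_add, Matrix.mulVec_mulVec, hB, Matrix.one_mulVec, add_comm]))
    have h3 := key (v - B *ᵥ v) (Or.inr (by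
      rw [Matrix.mulVec_sub, Matrix.mulVec_mulVec, hB, Matrix.one_mulVec, neg_sub]))
    have h4 : v = (2 : F)⁻¹ • ((v + B *ᵥ v) + (v - B *ᵥ v)) := by
      have : (v + B *ᵥ v) + (v - B *ᵥ v) = (2 : F) • v := by
        rw [two_smul]; abel
      rw [this, smul_smul, inv_mul_cancel₀ h2, one_smul]
    rw [h4]
    exact Submodule.smul_mem _ _ (Submodule.add_mem _ h1 h3)
  let b₀ := Module.Basis.ofSpan hspan
  have hsub := Module.Basis.ofSpan_subset hspan
  have hfin : Finite ((linearIndepOn_empty F id).extend (Set.empty_subset S)) :=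
    Module.Finite.finite_basis b₀
  have := Fintype.ofFinite ((linearIndepOn_empty F id).extend (Set.empty_subset S))
  have hcard : Fintype.card ((linearIndepOn_empty F id).extend (Set.empty_subset S)) = 3 := by
    rw [← Module.finrank_eq_card_basis b₀, Module.finrank_fin_fun]
  let e := Fintype.equivFinOfCardEq hcard
  refine ⟨b₀.reindex e, fun i => ?_⟩
  rw [Module.Basis.reindex_apply]
  exact hsub (Set.mem_range_self _)

local notation "SL3" => Matrix.SpecialLinearGroup (Fin 3)

/-- the diagonal matrices with entries `±1` and determinant 1 -/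
def sg (F : Type*) [Field F] : Subgroup (SL3 F) where
  carrier := {X | ∃ d : Fin 3 → F, (∀ i, d i = 1 ∨ d i = -1) ∧ X.1 = diagonal d}
  one_mem' := ⟨fun _ => 1, fun _ => Or.inl rfl, by rw [diagonal_one]; rfl⟩
  mul_mem' := by
    rintro X Y ⟨d, hd, hX⟩ ⟨e, he, hY⟩
    refine ⟨fun i => d i * e i, fun i => ?_, ?_⟩
    · show d i * e i = 1 ∨ d i * e i = -1
      rcases hd i with h | h <;> rcases he i with h' | h' <;> rw [h, h'] <;> simp
    · show (X.1 * Y.1 : Matrix (Fin 3) (Fin 3) F) = _
      rw [hX, hY, diagonal_mul_diagonal]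
  inv_mem' := by
    rintro X ⟨d, hd, hX⟩
    refine ⟨d, hd, ?_⟩
    have h1 : X * X = 1 := by
      apply Subtype.ext
      show (X.1 * X.1 : Matrix (Fin 3) (Fin 3) F) = (1 : Matrix (Fin 3) (Fin 3) F)
      rw [hX, diagonal_mul_diagonal, ← diagonal_one]
      congr 1
      funext i
      rcases hd i with h | h <;> rw [h] <;> simp
    rw [inv_eq_of_mul_eq_one_left h1, hX]

/-- the diagonal matrix with entry `1` at `i` and `-1` elsewhere -/
def sd (F : Type*) [Field F] (i : Fin 3) : SL3 F :=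
  ⟨diagonal (fun j => if j = i then 1 else -1), by
    rw [det_diagonal, Fin.prod_univ_three]
    fin_cases i <;> simp⟩

theorem sd_mem (i : Fin 3) : sd F i ∈ sg F :=
  ⟨_, fun j => by by_cases h : j = i <;> simp [h], rfl⟩

theorem sg_eq (h2 : (2 : F) ≠ 0) {X : SL3 F} (hX : X ∈ sg F) : X = 1 ∨ ∃ i, X = sd F i := by
  obtain ⟨d, hd, hX⟩ := hX
  have hone : (1 : F) ≠ -1 := by
    intro h
    apply h2
    linear_combination h
  have hdet := X.2
  rw [hX, det_diagonal, Fin.prod_univ_three] at hdet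
  have hsd : ∀ i : Fin 3, (∀ j, d j = if j = i then 1 else -1) → X = sd F i := by
    intro i hi
    apply Subtype.ext
    rw [hX]
    show diagonal d = diagonal _
    congr 1
    funext j
    exact hi j
  rcases hd 0 with h0 | h0 <;> rcases hd 1 with h1 | h1 <;> rcases hd 2 with h3 | h3 <;> rw [h0, h1, h3] at hdet
  · left
    apply Subtype.ext
    show X.1 = (1 : Matrix (Fin 3) (Fin 3) F)
    rw [hX, ← diagonal_one]
    congr 1
    funext i
    fin_cases i
    · exact h0
    · exact h1
    · exact h3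
  · exact absurd (by linear_combination -hdet) hone
  · exact absurd (by linear_combination -hdet) hone
  · right
    refine ⟨0, hsd 0 fun j => ?_⟩
    fin_cases j <;> simp [h0, h1, h3]
  · exact absurd (by linear_combination -hdet) hone
  · right
    refine ⟨1, hsd 1 fun j => ?_⟩
    fin_cases j <;> simp [h0, h1, h3]
  · right
    refine ⟨2, hsd 2 fun j => ?_⟩
    fin_cases j <;> simp [h0, h1, h3]
  · exact absurd (by linear_combination -hdet) hone

theorem sd_ne_one (h2 : (2 : F) ≠ 0) (i : Fin 3) : sd F i ≠ 1 := by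
  have hone : (1 : F) ≠ -1 := by
    intro h
    apply h2
    linear_combination h
  intro h
  have h1 := congrArg (fun M : SL3 F => M.1 (i + 1) (i + 1)) h
  have h3 : i + 1 ≠ i := by fin_cases i <;> decide
  simp [sd, h3] at h1
  exact hone h1.symm

theorem sd_injective (h2 : (2 : F) ≠ 0) : Function.Injective (sd F) := by
  have hone : (1 : F) ≠ -1 := by
    intro h
    apply h2
    linear_combination h
  intro i j hij
  by_contra hne
  have h1 := congrArg (fun M : SL3 F => M.1 i i) hij
  simp [sd, hne] at h1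
  exact hone h1

theorem card_sg (h2 : (2 : F) ≠ 0) : Nat.card (sg F) = 4 := by
  have e : Option (Fin 3) ≃ sg F := by
    refine Equiv.ofBijective (fun o => match o with
      | none => ⟨1, one_mem _⟩
      | some i => ⟨sd F i, sd_mem i⟩) ⟨?_, ?_⟩
    · rintro (_ | i) (_ | j) h
      · rfl
      · exact absurd (congrArg Subtype.val h).symm (sd_ne_one h2 j)
      · exact absurd (congrArg Subtype.val h) (sd_ne_one h2 i)
      · exact congrArg some (sd_injective h2 (congrArg Subtype.val h))
    · rintro ⟨X, hX⟩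
      rcases sg_eq h2 hX with rfl | ⟨i, rfl⟩
      · exact ⟨none, rfl⟩
      · exact ⟨some i, rfl⟩
  rw [← Nat.card_congr e, Nat.card_eq_fintype_card]
  rfl

/-- two commuting elements of `SL(3, F)` with square 1 are simultaneously conjugate into `sg` -/
theorem exists_conj2 (h2 : (2 : F) ≠ 0) {A B : SL3 F} (hA : A * A = 1) (hB : B * B = 1) (hAB : A * B = B * A) :
    ∃ P : SL3 F, P⁻¹ * A * P ∈ sg F ∧ P⁻¹ * B * P ∈ sg F := by
  obtain ⟨b, hb⟩ := exists_basis2 h2 (congrArg Subtype.val hA) (congrArg Subtype.val hB) (congrArg Subtype.val hAB)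
  set M : Matrix (Fin 3) (Fin 3) F := Matrix.of (fun i j => b j i) with hM
  have hMdet : M.det ≠ 0 := by
    have hli : LinearIndependent F M.col := b.linearIndependent
    rw [Matrix.linearIndependent_cols_iff_isUnit, Matrix.isUnit_iff_isUnit_det] at hli
    exact hli.ne_zero
  have hTM : ∀ (T : Matrix (Fin 3) (Fin 3) F) (d : Fin 3 → F), (∀ j, T *ᵥ b j = d j • b j) →
      T * M = M * Matrix.diagonal d := by
    intro T d hd
    ext i j
    rw [Matrix.mul_diagonal, Matrix.mul_apply]
    have := congrFun (hd j) i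
    rw [Matrix.mulVec, dotProduct, Pi.smul_apply, smul_eq_mul] at this
    have h1 : M i j = b j i := rfl
    rw [h1, mul_comm (b j i), ← this]
    rfl
  obtain ⟨P₀, hP₀⟩ : ∃ P₀ : Matrix (Fin 3) (Fin 3) F, P₀ = M * diagonal ![(M.det)⁻¹, 1, 1] := ⟨_, rfl⟩
  have hPdet : P₀.det = 1 := by
    rw [hP₀, Matrix.det_mul, Matrix.det_diagonal, Fin.prod_univ_three]
    simp only [Matrix.cons_val_zero, Matrix.cons_val_one, Matrix.cons_val, mul_one]
    exact mul_inv_cancel₀ hMdet
  let P : SL3 F := ⟨P₀, hPdet⟩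
  have key : ∀ T : SL3 F, (∀ i, T.1 *ᵥ b i = b i ∨ T.1 *ᵥ b i = - b i) → P⁻¹ * T * P ∈ sg F := by
    intro T hT
    have h1 : ∀ i, ∃ d : F, (d = 1 ∨ d = -1) ∧ T.1 *ᵥ b i = d • b i := by
      intro i
      rcases hT i with h | h
      · exact ⟨1, Or.inl rfl, by rw [h, one_smul]⟩
      · exact ⟨-1, Or.inr rfl, by rw [h, neg_smul, one_smul]⟩
    choose d hd hdb using h1
    have h3 := hTM T.1 d hdb
    have h4 : T.1 * P₀ = P₀ * diagonal d := by
      rw [hP₀, ← mul_assoc, h3, mul_assoc, mul_assoc, diagonal_mul_diagonal, diagonal_mul_diagonal]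
      congr 2
      funext i
      ring
    have hdd : (diagonal d).det = 1 := by
      have h5 : (T.1 * P₀).det = (P₀ * diagonal d).det := congrArg Matrix.det h4
      rw [Matrix.det_mul T.1 P₀, Matrix.det_mul P₀ (diagonal d), hPdet, one_mul, mul_one] at h5
      rw [← h5]
      exact T.2
    refine ⟨d, hd, ?_⟩
    let D : SL3 F := ⟨diagonal d, hdd⟩
    have h6 : T * P = P * D := Subtype.ext h4
    have h7 : P⁻¹ * T * P = D := by
      rw [mul_assoc, h6, inv_mul_cancel_left]
    rw [h7]
  exact ⟨P, key A fun i => (hb i).1, key B fun i => (hb i).2⟩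

/-- a subgroup of order 4 and exponent 2 of `SL(3, F)` is conjugate to `sg` -/
theorem exists_conj_sg (h2 : (2 : F) ≠ 0) {W : Subgroup (SL3 F)} (hW : Nat.card W = 4) (hW2 : ∀ x ∈ W, x * x = 1) :
    ∃ P : SL3 F, W = (sg F).map (MulAut.conj P).toMonoidHom := by
  have hfin : Finite W := Nat.finite_of_card_ne_zero (by rw [hW]; norm_num)
  -- two generators
  obtain ⟨a, ha, ha1⟩ : ∃ a ∈ W, a ≠ 1 := by
    by_contra hcon
    push Not at hcon
    have h1 : W = ⊥ := (eq_bot_iff_forall W).2 hcon
    rw [h1, card_bot] at hW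
    omega
  have haa := hW2 a ha
  obtain ⟨b, hb, hb'⟩ : ∃ b ∈ W, b ∉ zpowers a := by
    by_contra hcon
    push Not at hcon
    have h1 : Nat.card W ≤ Nat.card (zpowers a) := by
      have : Finite (zpowers a) := by
        refine Nat.finite_of_card_ne_zero ?_
        rw [Nat.card_zpowers, ← pos_iff_ne_zero, orderOf_pos_iff, isOfFinOrder_iff_pow_eq_one]
        exact ⟨2, by norm_num, by rw [pow_two, haa]⟩
      exact Subgroup.card_le_of_le hcon
    rw [hW, Nat.card_zpowers] at h1
    have h3 := orderOf_le_of_pow_eq_one (x := a) (n := 2) (by norm_num) (by rw [pow_two, haa])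
    omega
  have hcomm : ∀ x ∈ W, ∀ y ∈ W, x * y = y * x := by
    intro x hx y hy
    have h1 := hW2 _ (mul_mem hx hy)
    have h3 := inv_eq_of_mul_eq_one_left (hW2 x hx)
    have h4 := inv_eq_of_mul_eq_one_left (hW2 y hy)
    have h5 := inv_eq_of_mul_eq_one_left h1
    rw [_root_.mul_inv_rev, h3, h4] at h5
    exact h5.symm
  obtain ⟨P, hPa, hPb⟩ := exists_conj2 h2 haa (hW2 b hb) (hcomm a ha b hb)
  refine ⟨P, ?_⟩
  -- `W` is generated by `a` and `b`
  have hgen : W = closure {a, b} := by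
    have h1 : closure {a, b} ≤ W := by
      rw [closure_le]
      rintro x (rfl | hx)
      · exact ha
      · rw [Set.mem_singleton_iff] at hx
        rw [hx]
        exact hb
    have hf : Finite ↥(closure ({a, b} : Set (SL3 F))) := Finite.of_injective _ (inclusion_injective h1)
    refine (Subgroup.eq_of_le_of_card_ge h1 ?_).symm
    have h3 : Nat.card ↥(closure ({a, b} : Set (SL3 F))) ∣ 4 := hW ▸ Subgroup.card_dvd_of_le h1
    have h4 : zpowers a < closure ({a, b} : Set (SL3 F)) := by
      refine lt_of_le_of_ne ((zpowers_le).2 (subset_closure (by simp))) ?_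
      intro h
      exact hb' (h ▸ subset_closure (by simp))
    have h5 : Nat.card (zpowers a) < Nat.card ↥(closure ({a, b} : Set (SL3 F))) := by
      by_contra hcon
      push Not at hcon
      exact h4.ne (Subgroup.eq_of_le_of_card_ge h4.le hcon)
    have h6 : 2 ≤ Nat.card (zpowers a) := by
      rw [Nat.card_zpowers]
      have h7 : orderOf a ∣ 2 := orderOf_dvd_of_pow_eq_one (by rw [pow_two, haa])
      rcases (Nat.dvd_prime Nat.prime_two).1 h7 with h8 | h8
      · exact absurd (orderOf_eq_one_iff.1 h8) ha1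
      · omega
    rw [hW]
    have h7 : Nat.card ↥(closure ({a, b} : Set (SL3 F))) ≤ 4 := Nat.le_of_dvd (by norm_num) h3
    interval_cases h8 : Nat.card ↥(closure ({a, b} : Set (SL3 F)))
    · omega
    · omega
    · omega
    · omega
    · omega
  have hle : W ≤ (sg F).map (MulAut.conj P).toMonoidHom := by
    rw [hgen, closure_le]
    rintro x (rfl | hx)
    · exact ⟨_, hPa, by simp [mul_assoc]⟩
    · rw [Set.mem_singleton_iff] at hx
      rw [hx]
      exact ⟨_, hPb, by simp [mul_assoc]⟩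
  have hc : Nat.card ↥((sg F).map (MulAut.conj P).toMonoidHom) = 4 := by
    rw [Subgroup.card_map_of_injective (MulAut.conj P).injective, card_sg h2]
  have hf : Finite ↥((sg F).map (MulAut.conj P).toMonoidHom) := Nat.finite_of_card_ne_zero (by rw [hc]; norm_num)
  exact Subgroup.eq_of_le_of_card_ge hle (by rw [hc, hW])

/-! ### centralizer and normalizer of `sg` -/

theorem mem_cent_sg (h2 : (2 : F) ≠ 0) {X : SL3 F} :
    X ∈ centralizer (sg F : Set (SL3 F)) ↔ ∃ d : Fin 3 → F, X.1 = diagonal d := by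
  have hone : (1 : F) ≠ -1 := by
    intro h
    apply h2
    linear_combination h
  constructor
  · intro hX
    refine ⟨fun i => X.1 i i, ?_⟩
    ext i j
    by_cases hij : i = j
    · subst hij
      rw [diagonal_apply_eq]
    · rw [diagonal_apply_ne _ hij]
      have h1 : sd F i * X = X * sd F i := (mem_centralizer_iff.1 hX) _ (sd_mem i)
      have h3 : ((sd F i).1 * X.1) i j = (X.1 * (sd F i).1) i j := congrArg (fun M : SL3 F => M.1 i j) h1
      have h4 : (sd F i).1 = diagonal (fun k => if k = i then (1 : F) else -1) := rfl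
      rw [h4, diagonal_mul, mul_diagonal, if_pos rfl, if_neg (Ne.symm hij)] at h3
      have h5 : (2 : F) * X.1 i j = 0 := by linear_combination h3
      rcases mul_eq_zero.1 h5 with h6 | h6
      · exact absurd h6 h2
      · exact h6
  · rintro ⟨d, hd⟩
    rw [mem_centralizer_iff]
    rintro Y ⟨e, -, he⟩
    apply Subtype.ext
    show (Y.1 * X.1 : Matrix (Fin 3) (Fin 3) F) = X.1 * Y.1
    rw [hd, he, diagonal_mul_diagonal, diagonal_mul_diagonal]
    congr 1
    funext i
    ring

/-- the diagonal matrix with entries `x, y, (x y)⁻¹` -/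
def dd (p : Fˣ × Fˣ) : SL3 F :=
  ⟨diagonal ![(p.1 : F), (p.2 : F), ((p.1 * p.2)⁻¹ : Fˣ)], by
    rw [det_diagonal, Fin.prod_univ_three]
    show (p.1 : F) * (p.2 : F) * (((p.1 * p.2)⁻¹ : Fˣ) : F) = 1
    rw [← Units.val_mul, ← Units.val_mul, mul_inv_cancel, Units.val_one]⟩

theorem card_cent_sg [Fintype F] (h2 : (2 : F) ≠ 0) :
    Nat.card (centralizer (sg F : Set (SL3 F))) = (Fintype.card F - 1) ^ 2 := by
  classical
  have e : Fˣ × Fˣ ≃ centralizer (sg F : Set (SL3 F)) := by
    refine Equiv.ofBijective (fun p => ⟨dd p, (mem_cent_sg h2).2 ⟨_, rfl⟩⟩) ⟨?_, ?_⟩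
    · rintro ⟨x, y⟩ ⟨x', y'⟩ h
      have h1 := congrArg (fun M : centralizer (sg F : Set (SL3 F)) => M.1.1) h
      have h3 := congrFun (congrFun h1 0) 0
      have h4 := congrFun (congrFun h1 1) 1
      simp [dd] at h3 h4
      exact Prod.ext (Units.ext h3) (Units.ext h4)
    · rintro ⟨X, hX⟩
      obtain ⟨d, hd⟩ := (mem_cent_sg h2).1 hX
      have hdet := X.2
      rw [hd, det_diagonal, Fin.prod_univ_three] at hdet
      have h0 : d 0 ≠ 0 := by
        intro h
        rw [h] at hdet
        simp at hdet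
      have h1 : d 1 ≠ 0 := by
        intro h
        rw [h] at hdet
        simp at hdet
      refine ⟨(Units.mk0 _ h0, Units.mk0 _ h1), ?_⟩
      apply Subtype.ext
      apply Subtype.ext
      show diagonal _ = X.1
      rw [hd]
      congr 1
      funext i
      fin_cases i
      · rfl
      · rfl
      · show (((Units.mk0 _ h0 * Units.mk0 _ h1)⁻¹ : Fˣ) : F) = d 2
        rw [Units.val_inv_eq_inv_val, Units.val_mul, Units.val_mk0, Units.val_mk0]
        rw [inv_eq_of_mul_eq_one_right hdet]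
  rw [← Nat.card_congr e, Nat.card_prod, Nat.card_eq_fintype_card, Fintype.card_units, pow_two]

theorem dvd_relIndex {G : Type*} [Group G] [Finite G] {C N : Subgroup G} (hn : (C.subgroupOf N).Normal) {p : ℕ}
    (hp : p.Prime) {n : G} (hnN : n ∈ N) (hnC : n ∉ C) (hnp : n ^ p ∈ C) : p ∣ C.relIndex N := by
  have h1 : orderOf (QuotientGroup.mk (⟨n, hnN⟩ : N) : N ⧸ C.subgroupOf N) = p := by
    have : Fact p.Prime := ⟨hp⟩
    refine orderOf_eq_prime ?_ ?_
    · rw [← QuotientGroup.mk_pow, QuotientGroup.eq_one_iff, mem_subgroupOf]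
      exact hnp
    · intro h
      rw [QuotientGroup.eq_one_iff, mem_subgroupOf] at h
      exact hnC h
  rw [← h1, relIndex]
  exact orderOf_dvd_natCard _

/-- the cyclic permutation matrix -/
def c3 (F : Type*) [Field F] : SL3 F := ⟨!![0, 0, 1; 1, 0, 0; 0, 1, 0], by rw [det_fin_three]; simp⟩

/-- minus a transposition matrix -/
def c2 (F : Type*) [Field F] : SL3 F := ⟨!![0, -1, 0; -1, 0, 0; 0, 0, -1], by rw [det_fin_three]; simp⟩

theorem c3_cube : (c3 F) ^ 3 = 1 := by
  apply Subtype.ext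
  rw [pow_succ, pow_two]
  show (!![0, 0, 1; 1, 0, 0; 0, 1, 0] * !![0, 0, 1; 1, 0, 0; 0, 1, 0] * !![0, 0, 1; 1, 0, 0; 0, 1, 0] :
    Matrix (Fin 3) (Fin 3) F) = 1
  ext i j
  fin_cases i <;> fin_cases j <;> simp [Matrix.mul_apply, Fin.sum_univ_three]

theorem c2_sq : (c2 F) ^ 2 = 1 := by
  apply Subtype.ext
  rw [pow_two]
  show (!![0, -1, 0; -1, 0, 0; 0, 0, -1] * !![0, -1, 0; -1, 0, 0; 0, 0, -1] : Matrix (Fin 3) (Fin 3) F) = 1
  ext i j
  fin_cases i <;> fin_cases j <;> simp [Matrix.mul_apply, Fin.sum_univ_three]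

theorem mem_norm_of (h2 : (2 : F) ≠ 0) [Finite F] {g : SL3 F} (h : ∀ i, g * sd F i * g⁻¹ ∈ sg F) :
    g ∈ normalizer (sg F : Set (SL3 F)) := by
  have hle : (sg F).map (MulAut.conj g).toMonoidHom ≤ sg F := by
    rintro _ ⟨X, hX, rfl⟩
    show g * X * g⁻¹ ∈ sg F
    rcases sg_eq h2 hX with rfl | ⟨i, rfl⟩
    · rw [mul_one, mul_inv_cancel]
      exact one_mem _
    · exact h i
  have hfin : Finite (sg F) := Nat.finite_of_card_ne_zero (by rw [card_sg h2]; norm_num)
  have heq : (sg F).map (MulAut.conj g).toMonoidHom = sg F := Subgroup.eq_of_le_of_card_ge hle (by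
    rw [Subgroup.card_map_of_injective (MulAut.conj g).injective])
  rw [mem_normalizer_iff]
  intro X
  constructor
  · intro hX
    exact hle ⟨X, hX, rfl⟩
  · intro hX
    have hX' : g * X * g⁻¹ ∈ sg F := hX
    rw [← heq] at hX'
    obtain ⟨Y, hY, hYX⟩ := hX'
    have h3 : g * Y * g⁻¹ = g * X * g⁻¹ := hYX
    have h4 : Y = X := mul_left_cancel (mul_right_cancel h3)
    rw [← h4]
    exact hY

theorem c3_conj (i : Fin 3) : c3 F * sd F i = sd F (i + 1) * c3 F := by
  apply Subtype.ext
  show (!![0, 0, 1; 1, 0, 0; 0, 1, 0] : Matrix (Fin 3) (Fin 3) F) * (sd F i).1 = (sd F (i + 1)).1 *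
    (!![0, 0, 1; 1, 0, 0; 0, 1, 0] : Matrix (Fin 3) (Fin 3) F)
  ext j k
  fin_cases i <;> fin_cases j <;> fin_cases k <;>
    simp [Matrix.mul_apply, Fin.sum_univ_three, sd]

theorem c2_conj (i : Fin 3) : c2 F * sd F i = sd F (Equiv.swap 0 1 i) * c2 F := by
  apply Subtype.ext
  show (!![0, -1, 0; -1, 0, 0; 0, 0, -1] : Matrix (Fin 3) (Fin 3) F) * (sd F i).1 = (sd F (Equiv.swap 0 1 i)).1 *
    (!![0, -1, 0; -1, 0, 0; 0, 0, -1] : Matrix (Fin 3) (Fin 3) F)
  ext j k
  fin_cases i <;> fin_cases j <;> fin_cases k <;>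
    simp [Matrix.mul_apply, Fin.sum_univ_three, sd, Equiv.swap_apply_def]

theorem card_norm_sg [Finite F] (h2 : (2 : F) ≠ 0) :
    Nat.card (normalizer (sg F : Set (SL3 F))) = 6 * Nat.card (centralizer (sg F : Set (SL3 F))) := by
  have hle : centralizer (sg F : Set (SL3 F)) ≤ normalizer (sg F : Set (SL3 F)) := centralizer_le_normalizer _
  have hK : IsKleinFour (sg F) := by
    refine ⟨card_sg h2, ?_⟩
    have h1 : Monoid.exponent (sg F) ∣ 2 := by
      rw [Monoid.exponent_dvd_iff_forall_pow_eq_one]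
      rintro ⟨X, d, hd, hX⟩
      apply Subtype.ext
      apply Subtype.ext
      rw [pow_two]
      show (X.1 * X.1 : Matrix (Fin 3) (Fin 3) F) = 1
      rw [hX, diagonal_mul_diagonal, ← diagonal_one]
      congr 1
      funext i
      rcases hd i with h | h <;> rw [h] <;> simp
    rcases (Nat.dvd_prime Nat.prime_two).1 h1 with h3 | h3
    · exfalso
      rw [Monoid.exp_eq_one_iff] at h3
      have h4 := card_sg h2
      rw [Nat.card_unique] at h4
      omega
    · exact h3
  have h6 := Cfsg.Agent.TwoFusion.LocalIndex.relIndex_kleinFour_dvd (sg F) hK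
  have hn : ((centralizer (sg F : Set (SL3 F))).subgroupOf (normalizer (sg F : Set (SL3 F)))).Normal := by
    rw [← Subgroup.normalizerMonoidHom_ker]
    exact MonoidHom.normal_ker _
  have h3 : 3 ∣ (centralizer (sg F : Set (SL3 F))).relIndex (normalizer (sg F : Set (SL3 F))) := by
    refine dvd_relIndex hn Nat.prime_three (n := c3 F) (mem_norm_of h2 fun i => ?_) ?_ ?_
    · rw [c3_conj, mul_inv_cancel_right]
      exact sd_mem _
    · intro h
      have h1 : sd F 0 * c3 F = c3 F * sd F 0 := (mem_centralizer_iff.1 h) _ (sd_mem 0)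
      rw [c3_conj] at h1
      have := sd_injective h2 (mul_right_cancel h1)
      exact absurd this (by decide)
    · rw [c3_cube]
      exact one_mem _
  have h2' : 2 ∣ (centralizer (sg F : Set (SL3 F))).relIndex (normalizer (sg F : Set (SL3 F))) := by
    refine dvd_relIndex hn Nat.prime_two (n := c2 F) (mem_norm_of h2 fun i => ?_) ?_ ?_
    · rw [c2_conj, mul_inv_cancel_right]
      exact sd_mem _
    · intro h
      have h1 : sd F 0 * c2 F = c2 F * sd F 0 := (mem_centralizer_iff.1 h) _ (sd_mem 0)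
      rw [c2_conj] at h1
      have := sd_injective h2 (mul_right_cancel h1)
      exact absurd this (by decide)
    · rw [c2_sq]
      exact one_mem _
  have h7 : (centralizer (sg F : Set (SL3 F))).relIndex (normalizer (sg F : Set (SL3 F))) = 6 :=
    Nat.dvd_antisymm h6 (Nat.Coprime.mul_dvd_of_dvd_of_dvd (by norm_num : Nat.Coprime 2 3) h2' h3)
  have h8 := Subgroup.relIndex_mul_relIndex (⊥ : Subgroup (SL3 F)) _ _ bot_le hle
  rw [h7, relIndex_bot_left, relIndex_bot_left] at h8
  rw [← h8, mul_comm]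

/-! ### lifting to `SL(3, F)` -/

local notation "PSL3" => Matrix.ProjectiveSpecialLinearGroup (Fin 3)

/-- the projection -/
abbrev pr (F : Type*) [Field F] : SL3 F →* PSL3 F := QuotientGroup.mk' (center (SL3 F))

theorem pr_eq_one {z : SL3 F} : pr F z = 1 ↔ z ∈ center (SL3 F) := QuotientGroup.eq_one_iff z

theorem eq_one_of_center {z : SL3 F} (hz : z ∈ center (SL3 F)) (h : z * z = 1) : z = 1 := by
  have h3 := TwoFusion.PSL3Inv.pow_three_of_mem_center hz
  rw [pow_succ, pow_two, h, one_mul] at h3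
  exact h3

/-- elements with square 1 which commute in the quotient commute -/
theorem eq_of_pr {g s t : SL3 F} (hs : s * s = 1) (ht : t * t = 1) (h : pr F (g * s * g⁻¹) = pr F t) :
    g * s * g⁻¹ = t := by
  have h1 : g * s * g⁻¹ * t⁻¹ ∈ center (SL3 F) := by
    rw [← pr_eq_one, map_mul, h, map_inv, mul_inv_cancel]
  obtain ⟨z, hz⟩ : ∃ z, z = g * s * g⁻¹ * t⁻¹ := ⟨_, rfl⟩
  rw [← hz] at h1
  have h2 : g * s * g⁻¹ = z * t := by rw [hz]; group
  have h3 : z * z = 1 := by
    have h4 : (g * s * g⁻¹) * (g * s * g⁻¹) = 1 := by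
      calc (g * s * g⁻¹) * (g * s * g⁻¹) = g * (s * s) * g⁻¹ := by group
        _ = 1 := by rw [hs]; group
    rw [h2] at h4
    have h5 : t * z = z * t := (mem_center_iff.1 h1) t
    calc z * z = z * z * (t * t) := by rw [ht, mul_one]
      _ = z * (z * t) * t := by group
      _ = z * (t * z) * t := by rw [h5]
      _ = (z * t) * (z * t) := by group
      _ = 1 := h4
  rw [h2, eq_one_of_center h1 h3, one_mul]

theorem comm_of_pr {s t : SL3 F} (hs : s * s = 1) (h : pr F (s * t) = pr F (t * s)) : t * s * t⁻¹ = s := by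
  refine eq_of_pr hs hs ?_
  rw [map_mul, ← h, map_mul, map_inv, mul_inv_cancel_right]

variable (V : Subgroup (PSL3 F))

/-- the lift of a subgroup of exponent 2 -/
def lft (hV2 : ∀ x ∈ V, x * x = 1) : Subgroup (SL3 F) where
  carrier := {s | s * s = 1 ∧ pr F s ∈ V}
  one_mem' := ⟨mul_one 1, by rw [map_one]; exact one_mem V⟩
  mul_mem' := by
    rintro s t ⟨hs, hs'⟩ ⟨ht, ht'⟩
    refine ⟨?_, by rw [map_mul]; exact mul_mem hs' ht'⟩
    have h1 : pr F (s * t) = pr F (t * s) := by
      have h2 := hV2 _ (mul_mem hs' ht')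
      have h3 := inv_eq_of_mul_eq_one_left (hV2 _ hs')
      have h4 := inv_eq_of_mul_eq_one_left (hV2 _ ht')
      have h5 := inv_eq_of_mul_eq_one_left h2
      rw [_root_.mul_inv_rev, h3, h4] at h5
      rw [map_mul, map_mul]
      exact h5.symm
    have h2 := comm_of_pr hs h1
    have h3 : t * s = s * t := by
      calc t * s = (t * s * t⁻¹) * t := by group
        _ = s * t := by rw [h2]
    calc s * t * (s * t) = s * (t * s) * t := by group
      _ = s * (s * t) * t := by rw [h3]
      _ = (s * s) * (t * t) := by group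
      _ = 1 := by rw [hs, ht, mul_one]
  inv_mem' := by
    rintro s ⟨hs, hs'⟩
    refine ⟨?_, by rw [map_inv]; exact inv_mem hs'⟩
    rw [← _root_.mul_inv_rev, hs, inv_one]

variable {V} {hV2 : ∀ x ∈ V, x * x = 1}

theorem exists_lift {x : PSL3 F} (hx : x * x = 1) : ∃ s : SL3 F, s * s = 1 ∧ pr F s = x := by
  obtain ⟨s, rfl⟩ := QuotientGroup.mk'_surjective (center (SL3 F)) x
  have h1 : s * s ∈ center (SL3 F) := by
    rw [← pr_eq_one, map_mul]
    exact hx
  have h3 := TwoFusion.PSL3Inv.pow_three_of_mem_center h1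
  refine ⟨s * (s * s), ?_, ?_⟩
  · rw [pow_succ, pow_two] at h3
    calc s * (s * s) * (s * (s * s)) = s * s * (s * s) * (s * s) := by group
      _ = 1 := h3
  · rw [map_mul, pr_eq_one.2 h1, mul_one]

theorem map_lft : (lft V hV2).map (pr F) = V := by
  apply le_antisymm
  · rintro _ ⟨s, hs, rfl⟩
    exact hs.2
  · intro x hx
    obtain ⟨s, hs, rfl⟩ := exists_lift (hV2 x hx)
    exact ⟨s, ⟨hs, hx⟩, rfl⟩

theorem card_lft : Nat.card (lft V hV2) = Nat.card V := by
  have h1 : Function.Injective ((pr F).comp (lft V hV2).subtype) := by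
    rw [injective_iff_map_eq_one]
    rintro ⟨s, hs⟩ h
    have h2 : pr F s = 1 := h
    exact Subtype.ext (eq_one_of_center (pr_eq_one.1 h2) hs.1)
  have h2 : ((pr F).comp (lft V hV2).subtype).range = V := by
    rw [MonoidHom.range_comp, Subgroup.range_subtype]
    exact map_lft
  exact (Nat.card_congr (MonoidHom.ofInjective h1).toEquiv).trans (by rw [h2])

theorem comap_centralizer : (centralizer (V : Set (PSL3 F))).comap (pr F) = centralizer (lft V hV2 : Set (SL3 F)) := by
  ext g
  rw [mem_comap, mem_centralizer_iff, mem_centralizer_iff]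
  constructor
  · rintro h s ⟨hs, hs'⟩
    have h1 : g * s * g⁻¹ = s := by
      refine comm_of_pr hs ?_
      rw [map_mul, map_mul]
      exact h _ hs'
    calc s * g = (g * s * g⁻¹) * g := by rw [h1]
      _ = g * s := by group
  · intro h x hx
    obtain ⟨s, hs, rfl⟩ := exists_lift (hV2 x hx)
    have h1 := congrArg (pr F) (h s ⟨hs, hx⟩)
    rwa [map_mul, map_mul] at h1

theorem comap_normalizer : (normalizer (V : Set (PSL3 F))).comap (pr F) = normalizer (lft V hV2 : Set (SL3 F)) := by
  ext g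
  rw [mem_comap, mem_normalizer_iff, mem_normalizer_iff]
  constructor
  · intro h s
    have h1 := h (pr F s)
    have h2 : pr F (g * s * g⁻¹) = pr F g * pr F s * (pr F g)⁻¹ := by rw [map_mul, map_mul, map_inv]
    have h3 : g * s * g⁻¹ * (g * s * g⁻¹) = g * (s * s) * g⁻¹ := by group
    constructor
    · rintro ⟨hs, hs'⟩
      refine ⟨by rw [h3, hs]; group, ?_⟩
      rw [h2]
      exact h1.1 hs'
    · rintro ⟨hs, hs'⟩
      rw [h2] at hs'
      refine ⟨?_, h1.2 hs'⟩
      rw [h3] at hs
      calc s * s = g⁻¹ * (g * (s * s) * g⁻¹) * g := by group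
        _ = 1 := by rw [hs]; group
  · intro h x
    have key : ∀ (g' : SL3 F), (∀ s, s ∈ lft V hV2 → g' * s * g'⁻¹ ∈ lft V hV2) → ∀ x ∈ V,
        pr F g' * x * (pr F g')⁻¹ ∈ V := by
      intro g' hg' x hx
      obtain ⟨s, hs, rfl⟩ := exists_lift (hV2 x hx)
      have h1 := (hg' s ⟨hs, hx⟩).2
      rwa [map_mul, map_mul, map_inv] at h1
    constructor
    · exact key g (fun s hs => (h s).1 hs) x
    · intro hx
      have h1 := key g⁻¹ (fun s hs => by
        rw [h]
        have : g * (g⁻¹ * s * g⁻¹⁻¹) * g⁻¹ = s := by group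
        rwa [this]) _ hx
      rw [map_inv] at h1
      have h2 : (pr F g)⁻¹ * (pr F g * x * (pr F g)⁻¹) * (pr F g)⁻¹⁻¹ = x := by group
      rwa [h2] at h1

theorem card_comap [Finite F] (H : Subgroup (PSL3 F)) :
    Nat.card (H.comap (pr F)) = Nat.card H * Nat.card (center (SL3 F)) := by
  have h1 : (H.comap (pr F)).index = H.index := index_comap_of_surjective _ (QuotientGroup.mk'_surjective _)
  have h2 := Subgroup.card_mul_index (H.comap (pr F))
  have h3 := Subgroup.card_mul_index H
  have h4 : Nat.card (SL3 F) = Nat.card (PSL3 F) * Nat.card (center (SL3 F)) :=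
    card_eq_card_quotient_mul_card_subgroup _
  rw [h1, h4, ← h3] at h2
  have h5 : 0 < H.index := Nat.pos_of_ne_zero (Subgroup.index_ne_zero_of_finite)
  apply Nat.eq_of_mul_eq_mul_right h5
  rw [h2]
  ring

theorem card_centralizer_map {G : Type*} [Group G] (W : Subgroup G) (P : G) :
    Nat.card (centralizer ((W.map (MulAut.conj P).toMonoidHom : Subgroup G) : Set G)) =
      Nat.card (centralizer (W : Set G)) := by
  have h1 : centralizer ((W.map (MulAut.conj P).toMonoidHom : Subgroup G) : Set G) =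
      (centralizer (W : Set G)).map (MulAut.conj P).toMonoidHom := by
    ext g
    rw [mem_centralizer_iff]
    constructor
    · intro h
      refine ⟨P⁻¹ * g * P, ?_, by simp [mul_assoc]⟩
      rw [SetLike.mem_coe, mem_centralizer_iff]
      intro w hw
      have h2 := h (P * w * P⁻¹) ⟨w, hw, rfl⟩
      calc w * (P⁻¹ * g * P) = P⁻¹ * (P * w * P⁻¹ * g) * P := by group
        _ = P⁻¹ * (g * (P * w * P⁻¹)) * P := by rw [h2]
        _ = P⁻¹ * g * P * w := by group
    · rintro ⟨c, hc, rfl⟩ _ ⟨w, hw, rfl⟩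
      have h2 : w * c = c * w := (mem_centralizer_iff.1 hc) w hw
      show P * w * P⁻¹ * (P * c * P⁻¹) = P * c * P⁻¹ * (P * w * P⁻¹)
      calc P * w * P⁻¹ * (P * c * P⁻¹) = P * (w * c) * P⁻¹ := by group
        _ = P * (c * w) * P⁻¹ := by rw [h2]
        _ = _ := by group
  rw [h1, Subgroup.card_map_of_injective (MulAut.conj P).injective]

theorem card_normalizer_map {G : Type*} [Group G] (W : Subgroup G) (P : G) :
    Nat.card (normalizer ((W.map (MulAut.conj P).toMonoidHom : Subgroup G) : Set G)) =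
      Nat.card (normalizer (W : Set G)) := by
  have h1 : normalizer ((W.map (MulAut.conj P).toMonoidHom : Subgroup G) : Set G) =
      (normalizer (W : Set G)).map (MulAut.conj P).toMonoidHom := by
    have hmem : ∀ x : G, x ∈ W.map (MulAut.conj P).toMonoidHom ↔ P⁻¹ * x * P ∈ W := by
      intro x
      constructor
      · rintro ⟨w, hw, rfl⟩
        have : P⁻¹ * (P * w * P⁻¹) * P = w := by group
        show P⁻¹ * (P * w * P⁻¹) * P ∈ W
        rwa [this]
      · intro hx
        exact ⟨_, hx, by simp [mul_assoc]⟩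
    ext g
    rw [mem_normalizer_iff]
    constructor
    · intro h
      refine ⟨P⁻¹ * g * P, ?_, by simp [mul_assoc]⟩
      rw [SetLike.mem_coe, mem_normalizer_iff]
      intro w
      have h2 := h (P * w * P⁻¹)
      rw [hmem, hmem] at h2
      have e1 : P⁻¹ * (P * w * P⁻¹) * P = w := by group
      have e2 : P⁻¹ * (g * (P * w * P⁻¹) * g⁻¹) * P = P⁻¹ * g * P * w * (P⁻¹ * g * P)⁻¹ := by group
      rwa [e1, e2] at h2
    · rintro ⟨c, hc, rfl⟩ x
      rw [hmem, hmem]
      have h2 := (mem_normalizer_iff.1 hc) (P⁻¹ * x * P)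
      rw [h2]
      have e2 : c * (P⁻¹ * x * P) * c⁻¹ = P⁻¹ * ((P * c * P⁻¹) * x * (P * c * P⁻¹)⁻¹) * P := by group
      rw [e2]
      rfl
  rw [h1, Subgroup.card_map_of_injective (MulAut.conj P).injective]

/-- **Lemma T1.** -/
theorem psl3_four {F : Type} [Field F] [Fintype F] (h2 : (2 : F) ≠ 0)
    (V : Subgroup (Matrix.ProjectiveSpecialLinearGroup (Fin 3) F)) (hV : Nat.card V = 4) (hV2 : ∀ x ∈ V, x * x = 1) :
    Nat.card (centralizer (V : Set (Matrix.ProjectiveSpecialLinearGroup (Fin 3) F))) * Nat.gcd 3 (Fintype.card F - 1) =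
        (Fintype.card F - 1) ^ 2 ∧
      Nat.card (normalizer (V : Set (Matrix.ProjectiveSpecialLinearGroup (Fin 3) F))) =
        6 * Nat.card (centralizer (V : Set (Matrix.ProjectiveSpecialLinearGroup (Fin 3) F))) := by
  have hc := card_comap (centralizer (V : Set (PSL3 F)))
  have hn := card_comap (normalizer (V : Set (PSL3 F)))
  rw [comap_centralizer (hV2 := hV2)] at hc
  rw [comap_normalizer (hV2 := hV2)] at hn
  obtain ⟨P, hP⟩ := exists_conj_sg h2 (W := lft V hV2) (by rw [card_lft, hV]) (fun x hx => hx.1)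
  rw [hP, card_centralizer_map, card_cent_sg h2] at hc
  rw [hP, card_normalizer_map, card_norm_sg h2, card_cent_sg h2, hc] at hn
  have hz : Nat.card (center (SL3 F)) = Nat.gcd 3 (Fintype.card F - 1) := S0280.card_center_SL (by norm_num)
  refine ⟨by rw [← hz]; exact hc.symm, ?_⟩
  have hz0 : 0 < Nat.card (center (SL3 F)) := Nat.card_pos
  apply Nat.eq_of_mul_eq_mul_right hz0
  rw [← hn]
  ring

end Cfsg.Agent.H500.Psl3Four
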